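import Cfsg.Agent.H424.DegTools
import Cfsg.Agent.NotCT.Orders
import Cfsg.Agent.H417.DegMEleven
import Cfsg.Agent.H417.DegMTwelve
import Cfsg.Agent.H417.DegMTwentyTwo
import Cfsg.Agent.H417.DegMTwentyThree
import Cfsg.Agent.H417.JThreeDeg
import Cfsg.Agent.H815.S8.J1Deg
import Cfsg.Agent.H492.IMJ4
import Cfsg.Agent.H492.FactsON
import Cfsg.Agent.H492.IMHN
import Cfsg.Agent.H492.FactsTh
import Cfsg.Agent.H314.LyOrb.Deg
import Cfsg.Agent.H678.DG.HeDegA
import Cfsg.Agent.H289.Eight.SuzDeg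
import Cfsg.Agent.H852.PSq.HS
import Cfsg.Agent.H995.IMBRow

/-!
# S4908, SOC1, sporadic socles: known degrees, I (helper460)

`M11`, `M12`, `M22`, `M23`, `J1`, `J3`, `J4`, `ON`, `HN`, `Th`, `Ly`, `He`, `Suz`, `HS`, `B`.
-/

set_option autoImplicit false
set_option maxRecDepth 100000

namespace Cfsg.Agent.H460.S8

open Cfsg

universe u

theorem mem_of_irr {K : Type*} [Group K] {m : ℕ} (h : ∃ ψ : K → ℂ, IsIrrCharacter K ψ ∧ ψ 1 = ((m : ℕ) : ℂ)) :
    m ∈ charDegrees K := H424.DegTools.mem_charDegrees.2 h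

theorem mem_of_irr' {K : Type*} [Group K] {m : ℕ} (h : ∃ ψ : IrrCharacter K, (ψ : K → ℂ) 1 = ((m : ℕ) : ℂ)) :
    m ∈ charDegrees K := by
  obtain ⟨ψ, h1⟩ := h
  exact mem_of_irr ⟨ψ, ψ.2, h1⟩

theorem mem_of_equiv {K T : Type*} [Group K] [Group T] (e : K ≃* T) {m : ℕ} (h : m ∈ charDegrees T) :
    m ∈ charDegrees K := H424.DegTools.charDegrees_of_surjective e.toMonoidHom e.surjective h

variable {S : Type u} [Group S]

section

variable [Finite S]

theorem t_m11 [IsSimpleGroup S] (h : Spor.IsoM11 S) : ∀ d ∈ [10, 16, 45, 55], d ∈ charDegrees S := by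
  have h0 : IsM11 S := ⟨inferInstance, NotCT.Orders.m11 h⟩
  obtain ⟨x, hx, v, hB⟩ := SporadicA.M11Facts.exists_caseC h0
  intro d hd
  simp only [List.mem_cons, List.not_mem_nil, or_false] at hd
  rcases hd with rfl | rfl | rfl | rfl
  · exact ⟨v 1, Blocks.Basic.charDegree_of_eq (hB.degs 1)⟩
  · exact ⟨v 5, Blocks.Basic.charDegree_of_eq (hB.degs 5)⟩
  · exact ⟨v 4, Blocks.Basic.charDegree_of_eq (hB.degs 4)⟩
  · exact H417.DegMEleven.mem_55 h0

theorem t_m12 [hs : IsSimpleGroup S] (h : Spor.IsoM12 S) : ∀ d ∈ [16, 45, 54, 120], d ∈ charDegrees S := by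
  classical
  have hc : Nat.card S = 95040 := NotCT.Orders.m12 h
  have := Fintype.ofFinite S
  have := Characters.Core.finite_irr (G := S)
  have := Fintype.ofFinite (IrrCharacter S)
  obtain ⟨C, t, hdeg, -⟩ := H417.DegMTwelve.exists_ctx hc
    (fun P => Cfsg.Agent.MTwelve.SylowEleven.centralizer_sylow11 hc P)
    (fun P => Cfsg.Agent.MTwelve.SylowEleven.card_normalizer_sylow11 hc P)
  have hcd : ∀ ψ : IrrCharacter S, charDegree (ψ : S → ℂ) = C.deg ψ := fun ψ => by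
    rw [hdeg]
    exact MTwelve.ElevenMain.charDegree_eq_deg ψ
  intro d hd
  simp only [List.mem_cons, List.not_mem_nil, or_false] at hd
  rcases hd with rfl | rfl | rfl | rfl
  · exact ⟨C.th, (hcd _).trans C.dth⟩
  · exact ⟨C.c45, (hcd _).trans C.d45⟩
  · exact ⟨C.c54, (hcd _).trans C.d54⟩
  · exact ⟨C.c120, (hcd _).trans C.d120⟩

theorem t_m22 [IsSimpleGroup S] (h : Spor.IsoM22 S) :
    ∀ d ∈ [21, 45, 55, 99, 154, 210, 231, 280, 385], d ∈ charDegrees S := by
  obtain ⟨f, hf⟩ := H417.DegMTwentyTwo.exists_enum (G := S) ⟨inferInstance, NotCT.Orders.m22 h⟩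
  intro d hd
  have h2 : ∀ d ∈ [21, 45, 55, 99, 154, 210, 231, 280, 385], ∃ i : Fin 12, M22.DegreesEnd.LB.getD i 0 = d := by
    decide +kernel
  obtain ⟨i, hi⟩ := h2 d hd
  exact ⟨f i, by rw [hf i, hi]⟩

theorem t_m23 [IsSimpleGroup S] (h : Spor.IsoM23 S) : ∀ d ∈ [45, 230, 896, 1035], d ∈ charDegrees S := by
  obtain ⟨hs, H, z, v, a, b, c, d, g, h', b₁, c₁, E⟩ :=
    H417.DegMTwentyThree.exists_elev' (G := S) ⟨inferInstance, NotCT.Orders.m23 h⟩
  intro d hd
  simp only [List.mem_cons, List.not_mem_nil, or_false] at hd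
  rcases hd with rfl | rfl | rfl | rfl
  · exact ⟨_, E.dgb⟩
  · exact ⟨_, E.dga⟩
  · exact ⟨_, E.dgb₁⟩
  · exact ⟨_, E.dgd⟩

theorem t_j1 [IsSimpleGroup S] (h : Spor.IsoJ1 S) : ∀ d ∈ [56, 76, 77, 120, 133, 209], d ∈ charDegrees S := by
  have h1 : IsJ1 S := ⟨inferInstance, NotCT.Orders.j1 h⟩
  intro d hd
  rw [H815.S8.J1Deg.charDegrees_eq h1]
  simp only [List.mem_cons, List.not_mem_nil, or_false] at hd
  simp only [Set.mem_insert_iff, Set.mem_singleton_iff]
  tauto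

theorem t_j3 (h : Spor.IsoJ3 S) : ∀ d ∈ [3078], d ∈ charDegrees S := by
  obtain ⟨ψ, h2⟩ := (H417.JThreeDeg.max_degree h).1
  intro d hd
  simp only [List.mem_cons, List.not_mem_nil, or_false] at hd
  subst hd
  exact ⟨ψ, h2⟩

end

theorem t_j4 (h : Spor.IsoJ4 S) : ∀ d ∈ [889111, 1776888], d ∈ charDegrees S := by
  obtain ⟨e⟩ := h
  intro d hd
  simp only [List.mem_cons, List.not_mem_nil, or_false] at hd
  rcases hd with rfl | rfl
  · exact mem_of_equiv e (mem_of_irr' H492.IMJ4.exists_889111)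
  · exact mem_of_equiv e (mem_of_irr' H492.IMJ4.exists_1776888)

theorem t_on (h : Spor.IsoON S) : ∀ d ∈ [52668], d ∈ charDegrees S := by
  obtain ⟨e⟩ := h
  intro d hd
  simp only [List.mem_cons, List.not_mem_nil, or_false] at hd
  subst hd
  exact mem_of_equiv e (mem_of_irr' H492.FactsON.exists_52668)

theorem t_hn (h : Spor.IsoHN S) : ∀ d ∈ [8910, 365750], d ∈ charDegrees S := by
  obtain ⟨e⟩ := h
  intro d hd
  simp only [List.mem_cons, List.not_mem_nil, or_false] at hd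
  rcases hd with rfl | rfl
  · exact mem_of_equiv e (mem_of_irr' H492.IMHN.exists_8910)
  · exact mem_of_equiv e (mem_of_irr' H492.IMHN.exists_365750)

theorem t_th (h : Spor.IsoTh S) : ∀ d ∈ [30875, 61256], d ∈ charDegrees S := by
  obtain ⟨e⟩ := h
  intro d hd
  simp only [List.mem_cons, List.not_mem_nil, or_false] at hd
  rcases hd with rfl | rfl
  · exact mem_of_equiv e (mem_of_irr' H492.FactsTh.exists_30875)
  · exact mem_of_equiv e (mem_of_irr' H492.FactsTh.exists_61256)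

theorem t_ly (h : Spor.IsoLy S) : ∀ d ∈ [45694, 1534500], d ∈ charDegrees S := by
  obtain ⟨e⟩ := h
  obtain ⟨χ, -, hχ⟩ := H314.LyOrb.exists_deg_ly
  intro d hd
  simp only [List.mem_cons, List.not_mem_nil, or_false] at hd
  rcases hd with rfl | rfl
  · exact mem_of_equiv e ⟨χ 1, hχ 1⟩
  · exact mem_of_equiv e ⟨χ 2, hχ 2⟩

theorem t_he (h : Spor.IsoHe S) : ∀ d ∈ [680, 1275], d ∈ charDegrees S := by
  obtain ⟨e⟩ := h
  intro d hd
  simp only [List.mem_cons, List.not_mem_nil, or_false] at hd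
  rcases hd with rfl | rfl
  · exact mem_of_equiv e H678.DG.HeDegA.deg_680
  · exact mem_of_equiv e H678.DG.HeDegA.deg_1275

theorem t_suz (h : Spor.IsoSuz S) : ∀ d ∈ [364, 780, 5940, 15795], d ∈ charDegrees S := by
  obtain ⟨e⟩ := h
  intro d hd
  simp only [List.mem_cons, List.not_mem_nil, or_false] at hd
  rcases hd with rfl | rfl | rfl | rfl
  · exact mem_of_equiv e H289.Eight.SuzDeg.deg_364
  · exact mem_of_equiv e H289.Eight.SuzDeg.deg_780
  · exact mem_of_equiv e H289.Eight.SuzDeg.deg_5940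
  · exact mem_of_equiv e H289.Eight.SuzDeg.deg_15795

theorem t_b (h : Spor.IsoB S) : ∀ d ∈ [96255], d ∈ charDegrees S := by
  intro d hd
  simp only [List.mem_cons, List.not_mem_nil, or_false] at hd
  subst hd
  obtain ⟨χ, h1, -⟩ := H995.IMB.deg_b h (d := 96255) (by decide)
  exact mem_of_irr' ⟨χ, h1⟩

end Cfsg.Agent.H460.S8
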